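import Mathlib
import Cfsg.Agent.Lib.StdInt.Cover
import Cfsg.Agent.Lib.Co1Rec.Dod

/-! Involutions of `Co0` and their centralisers: common tools. -/

set_option autoImplicit false
set_option maxRecDepth 100000

namespace CfsgLib.StdInt

open Subgroup

section abstract

variable {L : Type*} [Group L] {t : L}

theorem mem_Wf_conj_iff (e : L ≃* L) {l x : L} : e x ∈ Wf (MulAut.conj (e l)) ↔ x ∈ Wf (MulAut.conj l) := by
  rw [← mem_Wf_back, back_conj]

/-- it is enough to check the facts on representatives of the classes -/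
theorem good_of_reps (hI : Inner L) (ne : t ≠ 1) (sq : t * t = 1) (cen : ∀ z, z ∈ center L ↔ z = 1 ∨ z = t)
    (R : L → Prop) (cls : ∀ l, l ≠ 1 → l ≠ t → (l * l = 1 ∨ l * l = t) → ∃ r, R r ∧ IsConj r l)
    (inn : ∀ l, R l → t ∈ Wf (MulAut.conj l))
    (nrm : ∀ s w, R s → s * s = 1 → Odd (orderOf w) → Commute w s →
      Odd (Nat.card (Nc s w)) ∨ ∃ r ∈ Nc s w, r * r = 1 ∧ r ≠ 1 ∧ r ≠ s)
    (fix : ∀ s a, R s → s * s = 1 →
      (∀ v ∈ Wf (MulAut.conj s), Two v → Commute a v) → a = 1 ∨ a = t ∨ a = s ∨ a = s * t) : Good t := by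
  have k : ∀ l, l ≠ 1 → l ≠ t → (l * l = 1 ∨ l * l = t) → ∃ r, R r ∧ ∃ e : L ≃* L, e t = t ∧ e r = l :=
    fun l h1 h2 h3 => by
      obtain ⟨r, hr, h4⟩ := cls l h1 h2 h3
      obtain ⟨g, hg⟩ := isConj_iff.1 h4
      exact ⟨r, hr, MulAut.conj g, mul_inv_eq_iff_eq_mul.2 (mem_center_iff.1 ((cen t).2 (Or.inr rfl)) g), hg⟩
  refine good_of_inner hI ne sq cen (fun l h1 h2 h3 => ?_) (fun s w h1 h2 h3 h4 h5 => ?_)
    fun s a h1 h2 h3 _ _ h6 => ?_
  · obtain ⟨r, hr, e, e1, rfl⟩ := k l h1 h2 h3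
    rw [← e1, mem_Wf_conj_iff]
    exact inn r hr
  · obtain ⟨r, hr, e, -, rfl⟩ := k s h2 h3 (Or.inl h1)
    obtain ⟨w, rfl⟩ := e.surjective w
    rw [card_Nc]
    exact (nrm r w hr ((sq_map e).1 h1) (by rwa [e.orderOf_eq] at h4) ((comm_map e).1 h5)).imp_right
      fun ⟨y, r1, r2, r3, r4⟩ => ⟨e y, map_Nc e r w ▸ mem_map_of_mem _ r1, (sq_map e).2 r2,
        e.map_ne_one_iff.2 r3, fun x => r4 (e.injective x)⟩
  · obtain ⟨r, hr, e, e1, rfl⟩ := k s h2 h3 (Or.inl h1)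
    obtain ⟨a, rfl⟩ := e.surjective a
    rcases fix r a hr ((sq_map e).1 h1) fun v hv h2 => (comm_map e).1
      (h6 _ ((mem_Wf_conj_iff e).2 hv) ((two_map e).2 h2)) with x | x | x | x <;> rw [x] <;> simp [e1]

theorem one_of_odd_two {w : L} (h : Odd (orderOf w)) (h2 : Two w) : w = 1 := by
  obtain ⟨k, hk⟩ := h2
  exact orderOf_eq_one_iff.1 (Nat.Coprime.eq_one_of_dvd ((Nat.coprime_two_right.2 h).pow_right k)
    (orderOf_dvd_of_pow_eq_one hk))

theorem odd_Nc_one (s : L) : Odd (Nat.card (Nc s 1)) := by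
  rw [show Nc s 1 = ⊥ from eq_bot_iff.2 ((closure_le _).2 (by rintro _ ⟨a, -, rfl⟩; simp)), card_bot]
  exact odd_one

end abstract

namespace C0

open Cfsg CfsgLib.Leech CfsgLib.Golay CfsgLib.MType CfsgLib.Co1Rec CfsgLib.OrthE QuadraticMap
open CfsgLib.Mathieu (P24 code comp cpow idc inM24 img)

theorem lift_isConj {x g : Co0} (h : IsConj (x : Spor.Co1) g) : IsConj x g ∨ IsConj (x * negAut) g := by
  obtain ⟨k, e⟩ := isConj_iff.1 h
  obtain ⟨k, rfl⟩ := QuotientGroup.mk_surjective k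
  refine (mk_eq_mk_co1.1 (show ((k * x * k⁻¹ : Co0) : Spor.Co1) = g from e)).imp
    (fun e => isConj_iff.2 ⟨k, e.symm⟩) fun e => isConj_iff.2 ⟨k, ?_⟩
  rw [e, mul_assoc _ k⁻¹, neg_comm k⁻¹, ← mul_assoc, ← mul_assoc]

theorem cls {l : Co0} (h1 : l ≠ 1) (h2 : l ≠ negAut) (h3 : l * l = 1 ∨ l * l = negAut) :
    ∃ x, (x = z0 ∨ x = c0 ∨ x = u0) ∧ (IsConj x l ∨ IsConj (x * negAut) l) := by
  rcases inv3 (t := l) (mk_eq_one_co1.2 h3) fun e => (mk_eq_one_co1.1 e).elim h1 h2 with h | h | h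
  exacts [⟨_, Or.inl rfl, lift_isConj h⟩, ⟨_, Or.inr (Or.inl rfl), lift_isConj h⟩,
    ⟨_, Or.inr (Or.inr rfl), lift_isConj h⟩]

theorem comm_neg {g x : Co0} : Commute g (x * negAut) ↔ Commute g x :=
  ⟨fun h => by
    have := h.mul_right (show Commute g negAut from neg_comm g)
    rwa [mul_assoc, negAut_mul_self, mul_one] at this, fun h => h.mul_right (neg_comm g)⟩

theorem conj_neg (x : Co0) : MulAut.conj (x * negAut) = MulAut.conj x := by
  rw [map_mul, (conj_eq_one fun _ => Leech.mem_center_iff).2 (Or.inr rfl), mul_one]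

theorem sq_neg (x : Co0) : x * negAut * (x * negAut) = x * x := by
  rw [mul_assoc, ← mul_assoc negAut, ← neg_comm, mul_assoc x negAut, negAut_mul_self, mul_one]

theorem not_u0 {s : Co0} (h : s = u0 ∨ s = u0 * negAut) : s * s ≠ 1 := by
  rcases h with rfl | rfl <;> simp only [sq_neg, u0_sq] <;> exact negAut_ne_one

theorem cent_signs {g : Co0} (h : ∀ e ∈ signs, Commute g e) : g ∈ signs :=
  PP.mem_signs fun a => by
    rw [one_smul]
    refine fix_of_comm fun i hi => ?_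
    obtain ⟨c, hc, h1, h2⟩ := Leech.exists_cw_sep hi
    exact ⟨c, hc, h _ ⟨c, hc, rfl⟩, fun e => h2 (e.1 h1)⟩

theorem two_of_mk {g : Co0} (h : (g : Spor.Co1) ∈ QQ) : Two g := by
  have h1 : (g : Spor.Co1) ^ 512 = 1 := by
    rw [← ct_QQ.card_Q]
    exact congrArg Subtype.val (pow_card_eq_one' (x := (⟨_, h⟩ : QQ)))
  refine ⟨10, ?_⟩
  rw [show 2 ^ 10 = 512 * 2 from rfl, pow_mul]
  rcases mk_eq_one_co1.1 (show ((g ^ 512 : Co0) : Spor.Co1) = 1 from h1) with e | e <;> rw [e]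
  exacts [one_pow 2, by rw [pow_two, negAut_mul_self]]

theorem mk_mem_QQ {x : Co0} (h : x ∈ Q0) : (x : Spor.Co1) ∈ QQ := ⟨x, h, rfl⟩

theorem Q0_comm {x : Co0} (h : x ∈ Q0) : Commute x z0 := comm_zz.1 (es_QQ.comm_z _ (mk_mem_QQ h))

/-- irreducibility under the involutions of `Ω⁺(8,2)` -/
theorem irr2 (S : AddSubmonoid V8) (hS : ∀ e ∈ E q8, e * e = 1 → ∀ w ∈ S, e.1 w ∈ S) {w : V8} (hw : w ∈ S)
    (h0 : w ≠ 0) (x : V8) : x ∈ S := by
  refine irr (t := 0) q8.map_zero S (fun w hw v v0 _ v1 => ?_) S.zero_mem hw h0 h0 (by simp)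
  obtain ⟨n, n0, n1, n2, -⟩ := ns3 w v 0
  have k : ∀ x, (refl q8 v * refl q8 n).1 x = x + polar q8 x n • n + polar q8 x v • v := fun x => by
    rw [O_mul_apply, refl8 n0, refl8 v0, polar_add_left, polar_smul_left, n2, smul_zero, add_zero]
  have e : (refl q8 v * refl q8 n).1 w = w + v := by
    rw [k, polar_comm, n1, polar_comm, v1, one_smul, zero_smul, add_zero]
  rw [← aa' w v, ← e]
  refine S.add_mem hw (hS _ (refl_mul_mem v0 n0) (O_ext fun x => ?_) w hw)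
  rw [O_mul_apply, k, k]
  simp only [polar_add_left, polar_smul_left, polar_self8, n2, polar_comm q8 v n, smul_zero, add_zero]
  change _ = x
  rw [add_right_comm _ (polar q8 x v • v), aa'', aa'']

/-- `p` is an element of odd order of `M24` -/
noncomputable def oddP (p n : ℕ) : Bool := inM24 p && Nat.beq (cpow p n) idc && Nat.beq (n % 2) 1

theorem pN_pow {p n : ℕ} (h : inM24 p = true) (e : cpow p n = idc) : pN p ^ n = 1 := by
  obtain ⟨σ, rfl⟩ := exists_code h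
  rw [pN_code, ← permHom_apply, ← map_pow, show σ ^ n = 1 from Subtype.ext (Mathieu.code_eq_idc.1 (by
    rw [Subgroup.coe_pow, Mathieu.code_pow, e])), map_one]

theorem isCode_img' {p m : ℕ} (h : inM24 p = true) (hm : isCode m = true) : isCode (img p m) = true := by
  obtain ⟨σ, rfl⟩ := exists_code h
  exact isCode_img σ hm

theorem pN_comm_iff {p m : ℕ} (h : inM24 p = true) (hm : isCode m = true) :
    Commute (pN p) (sN m) ↔ img p m = m := by
  rw [commute_iff_eq, pN_mul_sN h hm]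
  refine ⟨fun e => (sN_inj (isCode_img' h hm) hm (σ := 1) (τ := 1) ?_).1, fun e => by rw [e]⟩
  rw [mul_right_cancel e]

theorem pN_mem_W {p n : ℕ} (h : oddP p n = true) {l : Co0} (c : Commute (pN p) l) : pN p ∈ Wf (MulAut.conj l) := by
  simp only [oddP, Bool.and_eq_true, Nat.beq_eq] at h
  exact mem_Wf_conj ((Nat.odd_iff.2 h.2).of_dvd_nat (orderOf_dvd_of_pow_eq_one (pN_pow h.1.1 h.1.2))) c.symm

theorem sN_mem_W {p n c : ℕ} (h : oddP p n = true) (hc : isCode c = true) {l : Co0} (c1 : Commute (pN p) l)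
    (c2 : Commute (sN c) l) : sN (c ^^^ img p c) ∈ Wf (MulAut.conj l) := by
  have h1 := pN_mem_W h c1
  have h2 := mul_mem (conj_mem_Wf (a := sN c) (mul_inv_eq_iff_eq_mul.2 c2.symm) h1) (inv_mem h1)
  simp only [oddP, Bool.and_eq_true] at h
  rwa [inv_eq_of_mul_eq_one_right (sN_sq c), mul_assoc (sN c), pN_mul_sN h.1.1 hc, ← mul_assoc,
    mul_inv_cancel_right, sN_mul hc (isCode_img' h.1.1 hc)] at h2

end C0

end CfsgLib.StdInt
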