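import Mathlib
import Cfsg.Agent.Lib.StdInt.Co0A

/-! `Co0` is not a non-normal standard subgroup: the final contradiction. -/

set_option autoImplicit false
set_option maxRecDepth 100000

namespace CfsgLib.StdInt

open Subgroup

namespace C0

open Cfsg CfsgLib.Leech CfsgLib.Golay CfsgLib.MType CfsgLib.Co1Rec CfsgLib.OrthE QuadraticMap
open CfsgLib.Mathieu (P24 code comp cpow idc inM24 img)
open scoped Pointwise

theorem tr_isConj {x y : Co0} (h : IsConj x y) : tr y = tr x := by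
  obtain ⟨k, rfl⟩ := isConj_iff.1 h
  exact tr_conj k x

theorem tr_sN {m : ℕ} (h : isCode m = true) : tr (sN m) = 192 - 16 * pc m := by
  rw [sN_eq h, tr_sgn, card_ofMask (lt_of_isCode h)]

theorem c0_conj : IsConj c0 (c0 * negAut) := by
  have h1 : isCode 340831 = true := by decide +kernel
  have h2 : isCode (340831 ^^^ 16777215) = true := by decide +kernel
  obtain ⟨g, hg, e⟩ := Mathieu.dodecad_trans (d := ofMask 340831) (d' := ofMask (340831 ^^^ 16777215))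
    (mem_dodecads_iff.2 ⟨isCW_ofMask h1, by rw [card_ofMask (by norm_num)]; decide +kernel⟩)
    (mem_dodecads_iff.2 ⟨isCW_ofMask h2, by rw [card_ofMask (by decide)]; decide +kernel⟩)
  rw [c0, ← sN_full, sN_mul h1 (by decide +kernel), sN_eq h1, sN_eq h2]
  have k : ∀ (c d : Finset GolayPt) (hc : IsCW c) (hd : IsCW d), g • c = d → IsConj (sgnAut c hc) (sgnAut d hd) := by
    rintro c _ hc hd rfl
    exact isConj_iff.2 ⟨permAut ⟨g, hg⟩, mul_inv_eq_iff_eq_mul.2 (permAut_mul_sgnAut ⟨g, hg⟩ c hc)⟩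
  exact k _ _ _ _ e

/-- the classes of involutions are separated by the trace -/
theorem cls2 {s : Co0} (h : s * s = 1) : (tr s = 192 ∧ s = 1) ∨ (tr s = -192 ∧ s = negAut) ∨
    (tr s = -64 ∧ IsConj z0 s) ∨ (tr s = 64 ∧ IsConj (z0 * negAut) s) ∨ (tr s = 0 ∧ IsConj c0 s) := by
  by_cases h1 : s = 1
  · exact Or.inl ⟨by rw [h1, tr_one], h1⟩
  by_cases h2 : s = negAut
  · exact Or.inr (Or.inl ⟨by rw [h2, ← one_mul negAut, tr_neg, tr_one], h2⟩)
  have k : ∀ x, IsConj x s → x * x = 1 := fun x hx => by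
    obtain ⟨k, rfl⟩ := isConj_iff.1 hx
    exact (sq_map (MulAut.conj k)).1 h
  obtain ⟨_, rfl | rfl | rfl, e | e⟩ := cls h1 h2 (Or.inl h)
  · exact Or.inr (Or.inr (Or.inl ⟨by rw [tr_isConj e, tr_z0], e⟩))
  · exact Or.inr (Or.inr (Or.inr (Or.inl ⟨by rw [tr_isConj e, tr_neg, tr_z0]; rfl, e⟩)))
  · exact Or.inr (Or.inr (Or.inr (Or.inr ⟨by rw [tr_isConj e, tr_c0], e⟩)))
  · exact Or.inr (Or.inr (Or.inr (Or.inr ⟨by rw [tr_isConj e, tr_neg, tr_c0]; rfl, c0_conj.trans e⟩)))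
  · exact absurd (k _ e) (not_u0 (Or.inl rfl))
  · exact absurd (k _ e) (not_u0 (Or.inr rfl))

theorem isConj_of_tr {x y : Co0} (hx : x * x = 1) (hy : y * y = 1) (h : tr x = tr y) : IsConj x y := by
  rcases cls2 hx with a | a | a | a | a <;> rcases cls2 hy with b | b | b | b | b <;>
    first | omega | exact a.2.symm.trans b.2 | rw [a.2, b.2]

theorem Rc_comm {L : Type*} [Group L] {s x : L} (h : x ∈ Rc s) : Commute x s :=
  mem_centralizer_singleton_iff.1 ((closure_le (centralizer {s})).2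
    (fun _ hv => mem_centralizer_singleton_iff.2 hv.1) h)

theorem Rc_neg (x : Co0) : Rc (x * negAut) = Rc x := by
  simp only [Rc, comm_neg]

theorem neg_mem_Rc (x : Co0) : negAut ∈ Rc x := mem_Rc (neg_comm x).symm (two_of_sq negAut_mul_self)

theorem not_equiv (ψ : Rc c0 ≃* Rc z0) : False := by
  have k : ∀ p, (inM24 p && Nat.beq (cpow p 8) idc && Nat.beq (img p 340831) 340831) = true → pN p ∈ Rc c0 :=
    fun p h => by
      simp only [Bool.and_eq_true, Nat.beq_eq] at h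
      exact mem_Rc ((pN_comm_iff h.1.1 (by decide +kernel)).2 h.2) ⟨3, pN_pow h.1.1 h.1.2⟩
  have h1 := mul_mem (k 0xbcd545c0a975852a9c06792234058d (by decide +kernel))
    (k 0x7cea7b4940bb9095c58da18a320830 (by decide +kernel))
  rw [pN_mul (by decide +kernel) (by decide +kernel),
    show comp _ _ = 0x72d4f9c0edbd8c0a9642a122818589 by decide +kernel] at h1
  have h2 : pN 0x72d4f9c0edbd8c0a9642a122818589 ≠ 1 := fun e =>
    absurd ((pN_comm_iff (m := 8241104) (by decide +kernel) (by decide +kernel)).1 (e ▸ Commute.one_left _))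
      (by decide +kernel)
  have h3 := pN_pow (n := 11) (p := 0x72d4f9c0edbd8c0a9642a122818589)
    (by decide +kernel) (by decide +kernel)
  generalize pN _ = g at h1 h2 h3
  have h4 : (ψ ⟨g, h1⟩ : Co0) ^ 11 = 1 := by
    rw [← coe_pow, ← map_pow, show (⟨g, h1⟩ : Rc c0) ^ 11 = 1 from Subtype.ext h3, map_one, coe_one]
  refine not_has_zz Nat.prime_eleven (by norm_num) ⟨(ψ ⟨g, h1⟩ : Co0), fun e => ?_,
    congrArg QuotientGroup.mk h4, comm_zz.2 (Rc_comm (ψ _).2)⟩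
  rcases mk_eq_one_co1.1 e with e | e
  · exact h2 (congrArg Subtype.val (ψ.map_eq_one_iff.1 (Subtype.ext e)))
  · rw [e, neg_pow_odd (by decide)] at h4
    exact negAut_ne_one h4

/-- a 2-subgroup normalised by the 2-elements of the centraliser lies in the extraspecial group -/
theorem mem_QQ_of_norm {N : Subgroup Co0} (h1 : N ≤ Rc z0) (h2 : ∀ g ∈ N, Two g)
    (h3 : ∀ g ∈ Rc z0, ∀ x ∈ N, g * x * g⁻¹ ∈ N) {x : Co0} (hx : x ∈ N) : (x : Spor.Co1) ∈ QQ := by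
  have c : ∀ g ∈ N, (g : Spor.Co1) * zz = zz * g := fun g hg => comm_zz.2 (Rc_comm (h1 hg))
  let K : Subgroup (O q8) :=
    { carrier := {e | ∃ g ∈ N, ρ0 g = e}
      one_mem' := ⟨1, one_mem _, ct_QQ.ρ_one⟩
      mul_mem' := by
        rintro _ _ ⟨a, ha, rfl⟩ ⟨b, hb, rfl⟩
        exact ⟨a * b, mul_mem ha hb, ct_QQ.ρ_mul (c a ha) (c b hb)⟩
      inv_mem' := by
        rintro _ ⟨a, ha, rfl⟩
        exact ⟨a⁻¹, inv_mem ha, ct_QQ.ρ_inv (c a ha)⟩ }
  have hK : IsPGroup 2 K := by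
    rintro ⟨_, a, ha, rfl⟩
    obtain ⟨k, hk⟩ := h2 a ha
    have : ∀ n, ρ0 (a ^ n : Co0) = ρ0 a ^ n := fun n => by
      induction n with
      | zero => exact ct_QQ.ρ_one
      | succ n ih => rw [pow_succ, pow_succ, ← ih]; exact ct_QQ.ρ_mul (c _ (pow_mem ha n)) (c a ha)
    exact ⟨k, Subtype.ext ((this _).symm.trans (hk ▸ ct_QQ.ρ_one))⟩
  obtain ⟨w, hw, h0⟩ := hK.exists_fixed_point_of_prime_dvd_card_of_fixed_point V8 (a := 0)
    (by simp) fun g => smul_zero g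
  let S : AddSubmonoid V8 :=
    { carrier := {v | ∀ g ∈ K, g.1 v = v}
      zero_mem' := fun g _ => map_zero _
      add_mem' := fun ha hb g hg => by rw [map_add, ha g hg, hb g hg] }
  refine ct_QQ.mem_of_ρ (c x hx) (O_ext fun v => irr2 S ?_ (fun g hg => hw ⟨g, hg⟩) h0.symm v _ ⟨x, hx, rfl⟩)
  rintro e he e2 v hv _ ⟨a, ha, rfl⟩
  obtain ⟨g, hg, rfl⟩ := ct_QQ.surj e he
  obtain ⟨g, rfl⟩ := QuotientGroup.mk_surjective g
  obtain ⟨k, hk⟩ := two_of_mk (g := g * g) (ct_QQ.mem_of_ρ (cmul hg hg) ((ct_QQ.ρ_mul hg hg).trans e2))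
  have h4 := hv _ ⟨_, h3 g (mem_Rc (comm_zz.1 hg) ⟨k + 1, by rw [pow_succ', pow_mul, pow_two, hk]⟩) a ha,
    ct_QQ.ρ_conj hg (c a ha)⟩
  rw [inv_eq_of_mul_eq_one_right e2] at h4
  conv_rhs => rw [← h4]
  rw [← O_mul_apply, ← O_mul_apply, ← mul_assoc, ← mul_assoc, e2, one_mul]

theorem not_swap (ψ : Rc z0 ≃* Rc z0) : (ψ ⟨negAut, neg_mem_Rc z0⟩ : Co0) ≠ z0 := fun h => by
  have hQ : Q0 ≤ Rc z0 := fun x hx => mem_Rc (Q0_comm hx) (two_of_mk (mk_mem_QQ hx))
  let N : Subgroup Co0 := ((Q0.subgroupOf (Rc z0)).comap ψ.toMonoidHom).map (Rc z0).subtype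
  have k : ∀ x ∈ N, (x : Spor.Co1) ∈ QQ := fun x => mem_QQ_of_norm (map_subtype_le _) (by
    rintro _ ⟨g, hg, rfl⟩
    obtain ⟨k, hk⟩ := two_of_mk (mk_mem_QQ (x := ψ g) hg)
    exact ⟨k, congrArg Subtype.val (ψ.map_eq_one_iff.1 (show ψ (g ^ 2 ^ k) = 1 from
      Subtype.ext (by rw [map_pow]; exact hk)))⟩) (by
    rintro g hg _ ⟨x, hx, rfl⟩
    refine ⟨⟨g, hg⟩ * x * ⟨g, hg⟩⁻¹, ?_, rfl⟩
    change ((ψ (⟨g, hg⟩ * x * ⟨g, hg⟩⁻¹) : Rc z0) : Co0) ∈ Q0
    rw [map_mul, map_mul, map_inv]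
    exact Q0_norm (Rc_comm (ψ _).2) hx)
  obtain ⟨_, ⟨x, hx, rfl⟩, _, ⟨y, hy, rfl⟩, h1⟩ := es_QQ.nonab
  have h2 : x * y = z0 * (y * x) := eq_of_mk_Q0 (mul_mem hx hy) (mul_mem z0_mem (mul_mem hy hx))
    ((es_QQ.comm _ (mk_mem_QQ hx) _ (mk_mem_QQ hy)).resolve_left h1)
  obtain ⟨a, ha⟩ := ψ.surjective ⟨x, hQ hx⟩
  obtain ⟨b, hb⟩ := ψ.surjective ⟨y, hQ hy⟩
  have h3 : (a : Co0) * b = negAut * (b * a) := congrArg Subtype.val (ψ.injective
    (show ψ (a * b) = ψ (⟨negAut, neg_mem_Rc z0⟩ * (b * a)) from Subtype.ext (by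
      rw [map_mul, map_mul, map_mul, ha, hb, coe_mul, coe_mul, coe_mul, h]; exact h2)))
  obtain ⟨a', ha', e1⟩ := k a ⟨a, show ((ψ a : Rc z0) : Co0) ∈ Q0 from ha ▸ hx, rfl⟩
  obtain ⟨b', hb', e2⟩ := k b ⟨b, show ((ψ b : Rc z0) : Co0) ∈ Q0 from hb ▸ hy, rfl⟩
  have h4 : a' * b' = b' * a' := eq_of_mk_Q0 (mul_mem ha' hb') (mul_mem hb' ha') (by
    rw [QuotientGroup.mk_mul, QuotientGroup.mk_mul, show (a' : Spor.Co1) = (a : Co0) from e1,
      show (b' : Spor.Co1) = (b : Co0) from e2, ← QuotientGroup.mk_mul, h3, ← neg_comm]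
    exact (mk_eq_mk_co1.2 (Or.inr rfl)).symm)
  have h5 : Commute (a : Co0) b := by
    have h4' : Commute a' b' := h4
    rcases mk_eq_mk_co1.1 e1 with e | e <;> rcases mk_eq_mk_co1.1 e2 with e' | e' <;> rw [e, e']
    exacts [h4', comm_neg.2 h4', (comm_neg.2 h4'.symm).symm, comm_neg.2 (comm_neg.2 h4'.symm).symm]
  rw [h5.eq, right_eq_mul] at h3
  exact negAut_ne_one h3

variable {T : Set Co0}

theorem mem_of_tr (h : Fus negAut T) {x y : Co0} (hx : x ∈ T) (hy : y * y = 1) (e : tr x = tr y) : y ∈ T := by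
  obtain ⟨k, rfl⟩ := isConj_iff.1 (isConj_of_tr (h.inv x hx).1 hy e)
  exact h.conj x hx k

theorem z0_notMem (h : Fus negAut T) : z0 ∉ T := fun hz => by
  obtain ⟨s, hs, h1, ψ, h2, -, -⟩ := h.swap z0 hz fun e => by
    have := tr_z0; rw [e, ← one_mul negAut, tr_neg, tr_one] at this; omega
  have k : ∀ r, IsConj r s → ∃ ψ : Rc r ≃* Rc z0, (ψ ⟨negAut, neg_mem_Rc r⟩ : Co0) = z0 := fun r hr => by
    obtain ⟨k, rfl⟩ := isConj_iff.1 hr
    exact ⟨(rcMap (MulAut.conj k) r).trans ψ, h2 _ (mul_inv_eq_iff_eq_mul.2 (neg_comm k))⟩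
  rcases cls2 (h.inv s hs).1 with e | e | e | e | e
  · exact (h.inv s hs).2 e.2
  · exact h1 e.2
  · exact (k _ e.2).elim not_swap
  · obtain ⟨ψ, e⟩ := k _ e.2
    exact not_swap ((MulEquiv.subgroupCongr (Rc_neg z0).symm).trans ψ) e
  · exact (k _ e.2).elim fun ψ _ => not_equiv ψ

/-- the shadow of an involution commuting with an element of `T` -/
theorem shadow (h : Fus negAut T) {s y : Co0} (hs : s ∈ T) (h1 : s ≠ negAut) (h2 : y * y = 1) (h3 : Commute y s) :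
    ∃ a, a * a = 1 ∧ (a = 1 → y = 1) ∧ (a = negAut → y = s) ∧ (a ∈ T ↔ y ∈ T) ∧ (a * negAut ∈ T ↔ y * s ∈ T) := by
  obtain ⟨s', -, -, ψ, p1, -, p3⟩ := h.swap s hs h1
  obtain ⟨a, ha⟩ := ψ.surjective ⟨y, mem_Rc h3 (two_of_sq h2)⟩
  have e : (ψ a : Co0) = y := congrArg Subtype.val ha
  refine ⟨a, congrArg Subtype.val (ψ.map_eq_one_iff.1 (show ψ (a * a) = 1 from Subtype.ext (by
    rw [map_mul, coe_mul, e]; exact h2))), fun e1 => ?_, fun e1 => e ▸ p1 a e1, e ▸ p3 a, ?_⟩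
  · rw [← e, show a = 1 from Subtype.ext e1, map_one, coe_one]
  · have := p3 (a * ⟨negAut, neg_mem_Rc s'⟩)
    rwa [map_mul, coe_mul, coe_mul, e, p1 _ rfl] at this

end C0

open C0 Co1Rec Leech Golay in
theorem co0_not_fus (T : Set Cfsg.Co0) : ¬Fus Leech.negAut T := fun h => by
  have n1 : ∀ x ∈ T, tr x ≠ -64 := fun x hx e => z0_notMem h (mem_of_tr h hx z0_sq (e.trans tr_z0.symm))
  have ts : ∀ m j, (isCode m && Nat.beq (pc m) j) = true → tr (sN m) = 192 - 16 * j := fun m j e => by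
    simp only [Bool.and_eq_true, Nat.beq_eq] at e
    rw [tr_sN e.1, e.2]
  have sc : ∀ a b, Commute (sN a) (sN b) := fun a b => Co1Rec.signs_comm (sN_mem a) (sN_mem b)
  have tn : tr negAut = -192 := by rw [← one_mul negAut, tr_neg, tr_one]
  have sq : ∀ a : Cfsg.Co0, a * a = 1 → a * negAut * (a * negAut) = 1 := fun a ha => (sq_neg a).trans ha
  by_cases hc : c0 ∈ T
  · have c1 : c0 ≠ negAut := fun e => by have := tr_c0; rw [e] at this; omega
    obtain ⟨a, a1, a2, a3, a4, a5⟩ := shadow h hc c1 (sN_sq 16707820) (sc _ _)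
    obtain ⟨b, b1, b2, b3, b4, b5⟩ := shadow h hc c1 (sN_sq 14676119) (sc _ _)
    have t1 := ts 16707820 16 (by decide +kernel)
    have t2 := ts 14676119 16 (by decide +kernel)
    have t3 := ts (16707820 ^^^ 340831) 16 (by decide +kernel)
    have t4 := ts (14676119 ^^^ 340831) 12 (by decide +kernel)
    rw [c0, sN_mul (by decide +kernel) (by decide +kernel)] at a5 b5
    have b6 := b5.2 (mem_of_tr h hc (sN_sq _) (by rw [t4, tr_c0]; rfl))
    have b7 : b ∉ T := fun e => n1 _ (b4.1 e) t2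
    have b8 : tr b = -64 := by
      rcases cls2 b1 with e | e | e | e | e
      · have := tr_one; rw [← b2 e.2] at this; omega
      · have := tr_c0; rw [← b3 e.2] at this; omega
      · exact e.1
      · exact absurd (by rw [tr_neg, e.1]) (n1 _ b6)
      · exact absurd (mem_of_tr h hc b1 (tr_c0.trans e.1.symm)) b7
    have a6 : a ∉ T := fun e => n1 _ (a4.1 e) t1
    have a7 : a * negAut ∉ T := fun e => n1 _ (a5.1 e) t3
    rcases cls2 a1 with e | e | e | e | e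
    · have := tr_one; rw [← a2 e.2] at this; omega
    · have := tr_c0; rw [← a3 e.2] at this; omega
    · exact a7 (mem_of_tr h b6 (sq a a1) (by rw [tr_neg, tr_neg, b8, e.1]))
    · exact a6 (mem_of_tr h b6 a1 (by rw [tr_neg, b8, e.1]; rfl))
    · exact a6 (mem_of_tr h hc a1 (tr_c0.trans e.1.symm))
  have n2 : ∀ x ∈ T, x ≠ negAut → tr x = 64 := fun x hx h1 => by
    rcases cls2 (h.inv x hx).1 with e | e | e | e | e
    exacts [absurd e.2 (h.inv x hx).2, absurd e.2 h1, absurd e.1 (n1 x hx), e.1,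
      absurd (mem_of_tr h hx c0_sq (e.1.trans tr_c0.symm)) hc]
  obtain ⟨s, hs, h1⟩ := h.ex
  have k : ∀ m, (isCode m && Nat.beq (pc m) 8) = true → sN m ∈ T := fun m e =>
    mem_of_tr h hs (sN_sq m) (by rw [n2 s hs h1, ts m 8 e]; rfl)
  obtain ⟨a, a1, a2, a3, a4, a5⟩ := shadow h (k 8536111 (by decide +kernel))
    (fun e => by have := ts 8536111 8 (by decide +kernel); rw [e] at this; omega) (sN_sq 13062145) (sc _ _)
  rw [sN_mul (by decide +kernel) (by decide +kernel)] at a5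
  have a6 := a4.2 (k _ (by decide +kernel))
  have a7 := n2 a a6 fun e => absurd (sN_inj (a := 13062145) (b := 8536111) (by decide +kernel) (by decide +kernel)
    (σ := 1) (τ := 1) (by rw [a3 e])).1 (by norm_num)
  exact n1 _ (a5.2 (k _ (by decide +kernel))) (by rw [tr_neg, a7])

end CfsgLib.StdInt
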